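import Cfsg.Agent.H349.KBE.TwoRows

/-!
# `p` classes of `p`-elements in `³D₄(q)`, `p ∣ q² - 1` (S4822 KE; helper349)

The roots `α₁`, `α₃`, `α₄` are permuted by the Frobenius automorphism and orthogonal to each other and to the highest root.
-/

set_option autoImplicit false
set_option linter.unusedSectionVars false

namespace Cfsg.Agent.H349.KBE

open CoxeterSystem Cfsg Cfsg.Lie Cfsg.Lie.ChevalleyDatum
open Cfsg.Agent.ChevalleyStructure Cfsg.Agent.ChevalleyStructure.Elts Cfsg.Agent.ChevalleyStructure.CoxeterGeom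
  Cfsg.Agent.ChevalleyStructure.CoxeterGeomTypes Cfsg.Agent.ChevalleyStructure.NPerm
open Cfsg.Agent.Tits.Roots Cfsg.Agent.Tits.Core Cfsg.Agent.Nodes Cfsg.Agent.Nodes.Reps Cfsg.Agent.Nodes.BNOf
  Cfsg.Agent.Nodes.RGDChev
open Cfsg.Agent.KFacts.RgdChevCoord
open Cfsg.Agent.ChevalleyStructure.SL2Hom (up lo)
open Cfsg.Agent.Nodes.RGDFold Cfsg.Agent.Nodes.RGDFoldSL
open Cfsg.Agent.H469.Exc Cfsg.Agent.H469.Exc.SigFr Cfsg.Agent.H316.U6
open Cfsg.Agent.BpExc.LangFr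
open Cfsg.Agent.ChevalleyStructure.HMatDiagAll (expo)
open Cfsg.Agent.H81.TorOrth

universe u v w

section Orbit

variable {D : ChevalleyDatum} {l : ℕ} {M : CoxeterMatrix (Fin l)} {hp : IsType D l M} {r q : ℕ}
  [hr : Fact r.Prime] {K₀ : Type v} [Group K₀] (m : MData hp r q K₀)

/-- the action on the elements `ps s (mA b t)` -/
theorem act_mA {s : ℕ} (hs : s < D.nroots) {t : KK r} (ht : t ^ q = t) :
    ∃ (s' : ℕ) (hs' : s' < D.nroots) (c : KK r), vec D l s' = m.g (vec D l s) ∧ c ≠ 0 ∧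
      ∀ b : KK r, b ≠ 0 → m.σ (ps hp hs (mA b t)) = ps hp hs' (mA (c * b ^ q) t) := by
  have hsub : ∀ a b : KK r, (a - b) ^ q = a ^ q - b ^ q := by
    intro a b
    rw [← m.hq]
    exact sub_pow_char_pow a b m.e
  have hq0 : q ≠ 0 := by
    rw [← m.hq]
    exact (pow_pos hr.out.pos _).ne'
  obtain ⟨s', hv, hs', c, hc, h1, h2⟩ := m.act s hs
  refine ⟨s', hs', c, hv, hc, fun b hb => ?_⟩
  unfold mA
  rw [map_mul, map_mul, map_mul, map_mul, map_mul, map_mul, ps_up, ps_lo, ps_up, ps_up, ps_lo, ps_up, h1, h1, h2]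
  have e1 : c * (-b) ^ q = -(c * b ^ q) := by
    rw [← zero_sub, hsub, zero_pow hq0, zero_sub, mul_neg]
  have e2 : c⁻¹ * b⁻¹ ^ q = (c * b ^ q)⁻¹ := by
    rw [inv_pow, ← mul_inv]
  have e3 : c * (b * (t - 1)) ^ q = c * b ^ q * (t - 1) := by
    rw [mul_pow, hsub, ht, one_pow, mul_assoc]
  rw [e1, e2, e3]

end Orbit

section TD4

variable {r q : ℕ} [hr : Fact r.Prime] {K₀ : Type v} [Group K₀]

local notation "hp₄" => Nodes.RGDTwD4.hp

/-- the homomorphism of the four orthogonal roots -/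
noncomputable def Psi (k : Type*) [Field k] :
    (Matrix.SpecialLinearGroup (Fin 2) k × Matrix.SpecialLinearGroup (Fin 2) k) ×
      (Matrix.SpecialLinearGroup (Fin 2) k × Matrix.SpecialLinearGroup (Fin 2) k) →* ↥(chevD4.group k) :=
  ((ps hp₄ (s := 23) (by decide)).noncommCoprod (ps hp₄ (s := 18) (by decide))
    fun x y => ps_comm hp₄ (s := 23) (t := 18) (by decide) (by decide) (by decide +kernel) x y).noncommCoprod
  ((ps hp₄ (s := 13) (by decide)).noncommCoprod (ps hp₄ (s := 12) (by decide))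
    fun x y => ps_comm hp₄ (s := 13) (t := 12) (by decide) (by decide) (by decide +kernel) x y)
    (by
      rintro ⟨x1, x2⟩ ⟨y1, y2⟩
      have c1 : Commute (ps hp₄ (s := 23) (by decide) x1) (ps hp₄ (s := 13) (by decide) y1) :=
        ps_comm hp₄ (s := 23) (t := 13) (by decide) (by decide) (by decide +kernel) x1 y1
      have c2 : Commute (ps hp₄ (s := 23) (by decide) x1) (ps hp₄ (s := 12) (by decide) y2) :=
        ps_comm hp₄ (s := 23) (t := 12) (by decide) (by decide) (by decide +kernel) x1 y2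
      have c3 : Commute (ps hp₄ (s := 18) (by decide) x2) (ps hp₄ (s := 13) (by decide) y1) :=
        ps_comm hp₄ (s := 18) (t := 13) (by decide) (by decide) (by decide +kernel) x2 y1
      have c4 : Commute (ps hp₄ (s := 18) (by decide) x2) (ps hp₄ (s := 12) (by decide) y2) :=
        ps_comm hp₄ (s := 18) (t := 12) (by decide) (by decide) (by decide +kernel) x2 y2
      exact (c1.mul_right c2).mul_left (c3.mul_right c4))

theorem Psi_apply (k : Type*) [Field k] (x1 x2 x3 x4 : Matrix.SpecialLinearGroup (Fin 2) k) :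
    Psi k ((x1, x2), (x3, x4)) = ps hp₄ (s := 23) (by decide) x1 * ps hp₄ (s := 18) (by decide) x2 *
      (ps hp₄ (s := 13) (by decide) x3 * ps hp₄ (s := 12) (by decide) x4) := rfl

/-- the exponents of `h_{α₁} h_{α₃} h_{α₄}` -/
def ex3 : chevD4.Idx → ℤ := fun x => ex chevD4 18 x + ex chevD4 13 x + ex chevD4 12 x

theorem entry1 {k : Type*} [Field k] {s : ℕ} (hs : s < chevD4.nroots) {z : k} (hz : z ≠ 0) (i : ℕ) :
    (((ps hp₄ hs (hS z) ^ i : ↥(chevD4.group k)) : GL chevD4.Idx k) : Matrix chevD4.Idx chevD4.Idx k) =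
      Matrix.diagonal fun x => z ^ ((i : ℤ) * ex chevD4 s x) := by
  rw [entry hp₄ hs hz i]
  congr 1
  funext x
  rcases x with x | x
  · simp [ex]
  · simp only [Sum.elim_inr, ex]
    rw [mul_comm (i : ℤ), zpow_mul, zpow_natCast]

theorem entry_Psi {k : Type*} [Field k] {z : k} (hz : z ≠ 0) (i j : ℕ) :
    (((Psi k ((hS z, 1), (1, 1)) ^ i * Psi k ((1, hS z), (hS z, hS z)) ^ j : ↥(chevD4.group k)) : GL chevD4.Idx k) :
      Matrix chevD4.Idx chevD4.Idx k) =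
      Matrix.diagonal fun x => z ^ ((i : ℤ) * ex chevD4 23 x + (j : ℤ) * ex3 x) := by
  have e1 : Psi k ((hS z, 1), (1, 1)) ^ i * Psi k ((1, hS z), (hS z, hS z)) ^ j =
      ps hp₄ (s := 23) (by decide) (hS z) ^ i * ps hp₄ (s := 18) (by decide) (hS z) ^ j *
      (ps hp₄ (s := 13) (by decide) (hS z) ^ j * ps hp₄ (s := 12) (by decide) (hS z) ^ j) := by
    rw [← map_pow, ← map_pow, ← map_mul, ← map_pow, ← map_pow, ← map_pow, ← map_pow, ← Psi_apply]
    congr 1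
    simp
  rw [e1, Subgroup.coe_mul, Units.val_mul, Subgroup.coe_mul, Units.val_mul, Subgroup.coe_mul, Units.val_mul,
    entry1 (by decide) hz, entry1 (by decide) hz, entry1 (by decide) hz, entry1 (by decide) hz,
    Matrix.diagonal_mul_diagonal, Matrix.diagonal_mul_diagonal, Matrix.diagonal_mul_diagonal]
  congr 1
  funext x
  rw [← zpow_add₀ hz, ← zpow_add₀ hz, ← zpow_add₀ hz, ex3]
  congr 1
  ring

theorem g_vec (m : MData hp₄ r q K₀) (hg : m.g = H720.TwFr.permE H720.TwFr.rho4) :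
    m.g (vec chevD4 4 23) = vec chevD4 4 23 ∧ m.g (vec chevD4 4 18) = vec chevD4 4 13 ∧
      m.g (vec chevD4 4 13) = vec chevD4 4 12 ∧ m.g (vec chevD4 4 12) = vec chevD4 4 18 := by
  rw [hg]
  decide +kernel

/-- the element of the orbit `α₁`, `α₃`, `α₄` -/
theorem exists_orb (m : MData hp₄ r q K₀) (hg : m.g = H720.TwFr.permE H720.TwFr.rho4) (hdd : m.dd = 1)
    {t : KK r} (ht : t ^ q = t) : ∃ (b b1 b2 : KK r) (a : K₀), b ≠ 0 ∧ b1 ≠ 0 ∧ b2 ≠ 0 ∧
      m.ι a = Psi (KK r) ((1, mA b t), (mA b1 t, mA b2 t)) := by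
  obtain ⟨-, g1, g2, g3⟩ := g_vec m hg
  obtain ⟨s1, hs1, c0, hv1, hc0, k0⟩ := act_mA m (s := 18) (by decide) ht
  obtain rfl : s1 = 13 := vec_inj hp₄ hs1 (by decide) (hv1.trans g1)
  obtain ⟨s2, hs2, c1, hv2, hc1, k1⟩ := act_mA m (s := 13) (by decide) ht
  obtain rfl : s2 = 12 := vec_inj hp₄ hs2 (by decide) (hv2.trans g2)
  obtain ⟨s3, hs3, c2, hv3, hc2, k2⟩ := act_mA m (s := 12) (by decide) ht
  obtain rfl : s3 = 18 := vec_inj hp₄ hs3 (by decide) (hv3.trans g3)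
  have hq2 : 2 ≤ q := by
    rw [← m.hq]
    calc 2 ≤ r := hr.out.two_le
      _ = r ^ 1 := (pow_one r).symm
      _ ≤ r ^ m.e := Nat.pow_le_pow_right hr.out.pos m.he
  have hq3 : 2 ≤ q ^ 3 := hq2.trans (Nat.le_self_pow (by norm_num) q)
  have hC : c2 * c1 ^ q * c0 ^ (q ^ 2) ≠ 0 := mul_ne_zero (mul_ne_zero hc2 (pow_ne_zero _ hc1)) (pow_ne_zero _ hc0)
  obtain ⟨b, hb⟩ := IsAlgClosed.exists_pow_nat_eq (c2 * c1 ^ q * c0 ^ (q ^ 2))⁻¹ (show 0 < q ^ 3 - 1 by omega)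
  have hb0 : b ≠ 0 := by
    rintro rfl
    rw [zero_pow (by omega)] at hb
    exact inv_ne_zero hC hb.symm
  have hbq : c2 * (c1 * (c0 * b ^ q) ^ q) ^ q = b := by
    calc c2 * (c1 * (c0 * b ^ q) ^ q) ^ q = c2 * c1 ^ q * c0 ^ (q ^ 2) * b ^ (q ^ 3 - 1 + 1) := by
          rw [Nat.sub_add_cancel (by omega), mul_pow, mul_pow, mul_pow, ← pow_mul, ← pow_mul, ← pow_mul]
          ring
      _ = b := by rw [pow_succ b, hb, ← mul_assoc, mul_inv_cancel₀ hC, one_mul]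
  have hb1 : c0 * b ^ q ≠ 0 := mul_ne_zero hc0 (pow_ne_zero _ hb0)
  have hb2 : c1 * (c0 * b ^ q) ^ q ≠ 0 := mul_ne_zero hc1 (pow_ne_zero _ hb1)
  have hσ : m.σ (Psi (KK r) ((1, mA b t), (mA (c0 * b ^ q) t, mA (c1 * (c0 * b ^ q) ^ q) t))) =
      Psi (KK r) ((1, mA b t), (mA (c0 * b ^ q) t, mA (c1 * (c0 * b ^ q) ^ q) t)) := by
    rw [Psi_apply, map_mul, map_mul, map_mul, map_one, map_one, k0 b hb0, k1 _ hb1, k2 _ hb2, hbq, one_mul, one_mul]
    have e1 := ps_comm hp₄ (k := KK r) (s := 18) (t := 13) (by decide) (by decide) (by decide +kernel) (mA b t)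
      (mA (c0 * b ^ q) t)
    have e2 := ps_comm hp₄ (k := KK r) (s := 18) (t := 12) (by decide) (by decide) (by decide +kernel) (mA b t)
      (mA (c1 * (c0 * b ^ q) ^ q) t)
    rw [← e2, ← mul_assoc, ← e1, mul_assoc]
  obtain ⟨a, ha⟩ := m.pow_dd _ hσ
  rw [hdd, pow_one] at ha
  exact ⟨b, _, _, a, hb0, hb1, hb2, ha⟩

theorem cls_twd4 (m : MData hp₄ r q K₀) (hg : m.g = H720.TwFr.permE H720.TwFr.rho4) (hdd : m.dd = 1) {p : ℕ}
    [hpp : Fact p.Prime] (h7 : 7 ≤ p) (hpr : p ≠ r) (hd : p ∣ q ^ 2 - 1) : Cls p K₀ := by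
  have hp2 : p ≠ 2 := by omega
  obtain ⟨z, hz⟩ := exists_root (r := r) hpr
  have hz0 : z ≠ 0 := hz.ne_zero hpp.out.ne_zero
  have hz2 : z * z ≠ 1 := by
    intro h
    have h1 : p ∣ 2 := hz.dvd_of_pow_eq_one 2 (by rw [sq]; exact h)
    exact hp2 ((Nat.prime_dvd_prime_iff_eq hpp.out Nat.prime_two).1 h1)
  have hq2 : 2 ≤ q := by
    rw [← m.hq]
    calc 2 ≤ r := hr.out.two_le
      _ = r ^ 1 := (pow_one r).symm
      _ ≤ r ^ m.e := Nat.pow_le_pow_right hr.out.pos m.he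
  have ht : (z + z⁻¹) ^ q = z + z⁻¹ := by
    have hadd : (z + z⁻¹) ^ q = z ^ q + z⁻¹ ^ q := by
      rw [← m.hq]
      exact add_pow_char_pow z z⁻¹ r m.e
    rw [hadd]
    have h1 : p ∣ (q + 1) * (q - 1) := by
      have h2 : q ^ 2 - 1 ^ 2 = (q + 1) * (q - 1) := Nat.sq_sub_sq q 1
      rw [one_pow] at h2
      rwa [← h2]
    rcases (Nat.Prime.dvd_mul hpp.out).1 h1 with h3 | h3
    · have h4 : z ^ (q + 1) = 1 := (hz.pow_eq_one_iff_dvd _).2 h3
      have h5 : z ^ q = z⁻¹ := by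
        rw [pow_succ] at h4
        exact eq_inv_of_mul_eq_one_left h4
      rw [inv_pow, h5, inv_inv, add_comm]
    · have h4 : z ^ (q - 1) = 1 := (hz.pow_eq_one_iff_dvd _).2 h3
      have h5 : z ^ q = z := by
        calc z ^ q = z ^ (q - 1 + 1) := by rw [Nat.sub_add_cancel (by omega)]
          _ = z := by rw [pow_succ, h4, one_mul]
      rw [inv_pow, h5]
  obtain ⟨a, g, w, ha, hw⟩ := exists_elt m hp2 hpr hd (s := 23) (by decide) (g_vec m hg).1 hz
  obtain ⟨b, b1, b2, a', hb, hb1, hb2, ha'⟩ := exists_orb m hg hdd ht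
  have ha1 : m.ι a = Psi (KK r) ((g, 1), (1, 1)) := by
    rw [Psi_apply, map_one, map_one, map_one, mul_one, mul_one, mul_one, ha]
  have hinj := m.inj
  have key : ∀ i j : ℕ, IsConj (m.ι (a ^ i * a' ^ j))
      (Psi (KK r) ((hS z, 1), (1, 1)) ^ i * Psi (KK r) ((1, hS z), (hS z, hS z)) ^ j) := by
    intro i j
    refine isConj_iff.2 ⟨Psi (KK r) ((w, mW hb hz0 hz2), (mW hb1 hz0 hz2, mW hb2 hz0 hz2)), ?_⟩
    rw [map_mul, map_pow, map_pow, ha1, ha', ← map_pow, ← map_pow, ← map_mul, ← map_inv, ← map_mul, ← map_mul,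
      ← map_pow, ← map_pow, ← map_mul]
    congr 1
    simp only [Prod.ext_iff, Prod.fst_mul, Prod.snd_mul, Prod.pow_fst, Prod.pow_snd, Prod.fst_inv, Prod.snd_inv,
      one_pow, mul_one, one_mul]
    refine ⟨⟨?_, ?_⟩, ?_, ?_⟩
    · rw [← hw, conj_pow]
    · rw [← mW_conj hb hz0 hz2, conj_pow]
    · rw [← mW_conj hb1 hz0 hz2, conj_pow]
    · rw [← mW_conj hb2 hz0 hz2, conj_pow]
  have h1 : a * a' = a' * a := hinj (by
    rw [map_mul, map_mul, ha1, ha', ← map_mul, ← map_mul]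
    congr 1
    simp)
  have hS1 : (hS z : Matrix.SpecialLinearGroup (Fin 2) (KK r)) ^ p = 1 := by
    apply Subtype.ext
    rw [Matrix.SpecialLinearGroup.coe_pow, coe_hS hz0]
    have e : (!![z, 0; 0, z⁻¹] : Matrix (Fin 2) (Fin 2) (KK r)) = Matrix.diagonal ![z, z⁻¹] := by
      ext i j
      fin_cases i <;> fin_cases j <;> simp
    rw [e, Matrix.diagonal_pow, Matrix.SpecialLinearGroup.coe_one, ← Matrix.diagonal_one]
    congr 1
    funext i
    fin_cases i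
    · show z ^ p = 1
      exact hz.pow_eq_one
    · show z⁻¹ ^ p = 1
      rw [inv_pow, hz.pow_eq_one, inv_one]
  have conj_one : ∀ (x : K₀) (y : ↥(chevD4.group (KK r))), IsConj (m.ι x) y → y ^ p = 1 → x ^ p = 1 := by
    intro x y h hy
    obtain ⟨c, hc⟩ := isConj_iff.1 h
    have h2 : c * m.ι x ^ p * c⁻¹ = 1 := by rw [← conj_pow, hc, hy]
    refine hinj ?_
    rw [map_pow, map_one]
    have h3 : c * m.ι x ^ p = c := by rw [mul_inv_eq_one] at h2; exact h2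
    exact mul_eq_left.1 h3
  have h2 : a ^ p = 1 := by
    refine conj_one a _ (by simpa using key 1 0) ?_
    rw [← map_pow, ← map_one (Psi (KK r))]
    congr 1
    simp only [Prod.ext_iff, Prod.pow_fst, Prod.pow_snd, one_pow, hS1, Prod.fst_one, Prod.snd_one, and_self]
  have h3 : a' ^ p = 1 := by
    refine conj_one a' _ (by simpa using key 0 1) ?_
    rw [← map_pow, ← map_one (Psi (KK r))]
    congr 1
    simp only [Prod.ext_iff, Prod.pow_fst, Prod.pow_snd, one_pow, hS1, Prod.fst_one, Prod.snd_one, and_self]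
  refine cls_of_pair ((chevD4.group (KK r)).subtype.comp m.ι) hp2 hz h1 h2 h3 (ex chevD4 23) ex3 ?_ ?_ ?_ ?_
  · intro i j
    exact ⟨_, (chevD4.group (KK r)).subtype.map_isConj (key i j), entry_Psi hz0 i j⟩
  · rw [show ∑ x, ex chevD4 23 x ^ 2 = 24 by decide +kernel]
    exact cast_ne h7 (by norm_num)
  · rw [show ∑ x, ex3 x ^ 2 = 72 by decide +kernel]
    exact cast_ne h7 (by norm_num)
  · rw [show ∑ x, ex chevD4 23 x * ex3 x = 0 by decide +kernel]
    exact Int.cast_zero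

/-- **`³D₄(q)`** -/
theorem cls_TwD4 {F : Type} [Field F] [Fintype F] [CharP F r] (hq : IsPrimePow q) (hF : Fintype.card F = q ^ 3) {p : ℕ}
    [Fact p.Prime] (h7 : 7 ≤ p) (hpr : p ≠ r) (hd : p ∣ q ^ 2 - 1) : Cls p ↥(twistedD4 F q) := by
  obtain ⟨m, hdd, hg⟩ := mdata_twD4' (r := r) (K := F) hq hF
  exact cls_twd4 m hg hdd h7 hpr hd

end TD4

end Cfsg.Agent.H349.KBE
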